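import Cfsg.Agent.Lib.Ree.Inv

/-!
Conjugacy classes of the Borel subgroup of a small Ree group, and some counting in the field.
-/

set_option autoImplicit false

namespace Cfsg.Lib.Ree

open Polynomial

variable {K : Type*} [Field K] {G : Type*} [Group G]

theorem ncard_le_four (ψ : K →+* K) (hψ : ∀ t, ψ (ψ t) = t ^ 3) (a α γ : K) :
    {c | a * ψ c = c ^ 2 + α * c + γ}.ncard ≤ 4 := by
  classical
  let P : K[X] := (X ^ 2 + C α * X + C γ) ^ 2 + C (a * ψ α) * (X ^ 2 + C α * X + C γ) +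
    C (a ^ 2 * ψ γ) - C (a ^ 2 * ψ a) * X ^ 3
  have h1 : P.Monic := by unfold P; monicity!
  have h2 : P.natDegree ≤ 4 := by unfold P; compute_degree
  refine le_trans ?_ (((Multiset.toFinset_card_le _).trans P.card_roots').trans h2)
  rw [← Set.ncard_coe_finset]
  refine Set.ncard_le_ncard fun c (hc : _ = _) => ?_
  have h3 := congrArg ψ hc
  simp only [map_add, map_mul, map_pow, hψ] at h3
  simp only [Finset.mem_coe, Multiset.mem_toFinset, mem_roots h1.ne_zero, IsRoot, P, eval_add,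
    eval_sub, eval_mul, eval_pow, eval_X, eval_C]
  linear_combination -a ^ 2 * h3 - (a * ψ c + (c ^ 2 + α * c + γ) + a * ψ α) * hc

theorem eq_or_eq_neg_of_card_three {A : Type*} [AddGroup A] (h : Nat.card A = 3) {x y : A}
    (hx : x ≠ 0) (hy : y ≠ 0) : x = y ∨ x = -y := by
  have key : ∀ s t : ZMod 3, s ≠ 0 → t ≠ 0 → s = t ∨ s = -t := by decide
  have := Fact.mk Nat.prime_three
  let e : A ≃+ ZMod 3 := addEquivOfPrimeCardEq h (Nat.card_zmod 3)
  rw [← e.injective.eq_iff, ← e.injective.eq_iff (a := x), map_neg]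
  rw [← e.map_ne_zero_iff] at hx hy
  exact key _ _ hx hy

namespace Model

variable (M : Model K G)

theorem isConj_h (l : Kˣ) (a b c : K) :
    IsConj (M.u a b c) (M.u (l * a) (l * M.ψ l * b) (l ^ 2 * M.ψ l * c)) :=
  isConj_iff.2 ⟨_, M.h_u l a b c⟩

theorem isConj_u {a : K} (ha : a ≠ 0) (x b c c' : K) :
    IsConj (M.u a b c) (M.u a (b + a * M.ψ x - x * M.ψ a) c') :=
  isConj_iff.2 ⟨M.u x ((c + x * b + x ^ 2 * M.ψ a + x * a * M.ψ a + a ^ 2 * M.ψ x - c') / a) 0, by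
    rw [u_conj, u_inj]; exact ⟨rfl, rfl, by field_simp; ring⟩⟩

theorem isConj_u' {b : K} (hb : b ≠ 0) (c c' : K) : IsConj (M.u 0 b c) (M.u 0 b c') :=
  isConj_iff.2 ⟨M.u ((c' - c) / b) 0 0, by
    rw [u_conj, u_inj]; exact ⟨rfl, by simp, by simp; field_simp; ring⟩⟩

/-- The image of `ψ - 1`. -/
def I : AddSubgroup K := (M.ψ.toAddMonoidHom - AddMonoidHom.id K).range

theorem mem_I {y : K} : y ∈ M.I ↔ ∃ z, M.ψ z - z = y := Iff.rfl

theorem isConj_nine {a a' b b' : K} (ha : a ≠ 0) (ha' : a' ≠ 0)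
    (h : b / (a * M.ψ a) - b' / (a' * M.ψ a') ∈ M.I) (c c' : K) :
    IsConj (M.u a b c) (M.u a' b' c') := by
  obtain ⟨z, hz⟩ := h
  have h1 := M.ψ_ne_zero ha
  have h2 := M.ψ_ne_zero ha'
  change M.ψ z - z = _ at hz
  refine (M.isConj_h (Units.mk0 (a' / a) (div_ne_zero ha' ha)) a b c).trans ?_
  rw [Units.val_mk0, div_mul_cancel₀ _ ha]
  convert M.isConj_u ha' (-(a' * z)) _ _ c' using 2
  rw [map_neg, map_mul, map_div₀, eq_add_of_sub_eq hz]
  field_simp
  ring

variable [Finite K]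

theorem isConj_center {c c' : K} (hc : c ≠ 0) (hc' : c' ≠ 0) :
    IsConj (M.u 0 0 c) (M.u 0 0 c') := by
  have h : Function.Surjective fun l : K => l ^ 2 * M.ψ l := Finite.surjective_of_injective
    fun l l' (h : _ = _) => by
      by_cases h0 : l' = 0
      · simpa [h0] using h
      · have := M.ψ_ne_zero h0
        exact (div_eq_one_iff_eq h0).1 (M.sq_mul_ψ_eq_one (by rw [map_div₀]; field_simp; exact h))
  obtain ⟨l, hl⟩ := h (c' / c)
  have h0 : l ≠ 0 := by rintro rfl; exact div_ne_zero hc' hc (by simpa using hl.symm)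
  simpa [hl, hc] using M.isConj_h (Units.mk0 l h0) 0 0 c

theorem exists_mul_ψ {b b' : K} (hb : b ≠ 0) (hb' : b' ≠ 0) :
    ∃ l : Kˣ, b' = l * M.ψ l * b ∨ b' = l * M.ψ l * -b := by
  obtain ⟨l, h, -⟩ := M.exists_stW (div_ne_zero hb' hb)
  exact ⟨l, h.imp (fun h => by rw [← h, div_mul_cancel₀ _ hb]) fun h => by
    rw [mul_neg, ← neg_mul, ← h, div_mul_cancel₀ _ hb]⟩

theorem isConj_T {b b' : K} (hb : b ≠ 0) (hb' : b' ≠ 0) (c c' : K) :
    IsConj (M.u 0 b c) (M.u 0 b' c') ∨ IsConj (M.u 0 b c)⁻¹ (M.u 0 b' c') := by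
  obtain ⟨l, h⟩ := M.exists_mul_ψ hb hb'
  refine h.imp (fun h => (M.isConj_h l ..).trans ?_) fun h => ?_
  · rw [mul_zero, ← h]; exact M.isConj_u' hb' ..
  · rw [u_inv]
    refine (M.isConj_h l ..).trans ?_
    rw [neg_zero, mul_zero, zero_mul, sub_zero, ← h]
    exact M.isConj_u' hb' ..

theorem isConj_six {b b' : K} (hb : b ≠ 0) (hb' : b' ≠ 0) :
    IsConj (M.u 0 b 0 * M.a) (M.u 0 b' 0 * M.a) ∨
      IsConj (M.u 0 b 0 * M.a)⁻¹ (M.u 0 b' 0 * M.a) := by
  have key : ∀ (l : Kˣ) b, IsConj (M.u 0 b 0 * M.a) (M.u 0 (l * M.ψ l * b) 0 * M.a) := fun l b =>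
    isConj_iff.2 ⟨M.h l, by
      rw [← mul_assoc, h_mul_u, mul_assoc, mul_assoc, ← mul_assoc (M.h l), h_mul_a]; simp⟩
  obtain ⟨l, rfl | rfl⟩ := M.exists_mul_ψ hb hb'
  · exact Or.inl (key ..)
  · refine Or.inr ?_
    rw [mul_inv_rev, a_inv, u_inv, a_mul_u]
    simpa using key l (-b)

theorem three_mul_card_I : 3 * Nat.card M.I = Nat.card K := by
  have h1 : ((M.ψ.toAddMonoidHom - AddMonoidHom.id K).ker : Set K) = {0, 1, -1} := by
    ext x
    change M.ψ x - x = 0 ↔ _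
    constructor
    · intro h
      have h2 := M.ψψ x
      rw [sub_eq_zero.1 h, sub_eq_zero.1 h] at h2
      have h3 : x * ((x - 1) * (x + 1)) = 0 := by linear_combination -h2
      simpa [sub_eq_zero, add_eq_zero_iff_eq_neg] using h3
    · rintro (rfl | rfl | rfl) <;> simp
  rw [← AddSubgroup.card_mul_index (M.ψ.toAddMonoidHom - AddMonoidHom.id K).ker,
    AddSubgroup.index_ker, ← SetLike.coe_sort_coe (M.ψ.toAddMonoidHom - AddMonoidHom.id K).ker, h1,
    Nat.card_coe_set_eq, Set.ncard_insert_of_notMem (by simp),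
    Set.ncard_pair M.neg_one_ne_one.symm]
  rfl

theorem sub_mem_or {x y : K} (hx : x ∉ M.I) (hy : y ∉ M.I) : x - y ∈ M.I ∨ x + y ∈ M.I := by
  have h := M.I.card_mul_index
  rw [← M.three_mul_card_I, mul_comm 3] at h
  have := eq_or_eq_neg_of_card_three (A := K ⧸ M.I) (Nat.eq_of_mul_eq_mul_left Nat.card_pos h)
    (mt (QuotientAddGroup.eq_zero_iff x).1 hx) (mt (QuotientAddGroup.eq_zero_iff y).1 hy)
  simpa only [← QuotientAddGroup.mk_neg, QuotientAddGroup.eq_iff_sub_mem, sub_neg_eq_add] using this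

/-- The counting bound for the classes of order nine. -/
theorem ncard_le_of_mem_I {P : Set (K × K)} (h : ∀ p ∈ P, ∀ p' ∈ P, p.1 ≠ p'.1 →
    (p'.2 - p.2) / ((p'.1 - p.1) * M.ψ (p'.1 - p.1)) ∈ M.I) :
    P.ncard ≤ Nat.card K + Nat.card M.I * Nat.card M.I := by
  classical
  by_cases h1 : Set.InjOn Prod.fst P
  · exact ((Set.ncard_le_ncard_of_injOn _ (fun _ _ => Set.mem_univ _) h1).trans_eq
      (Set.ncard_univ _)).trans (Nat.le_add_right ..)
  simp only [Set.InjOn, not_forall] at h1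
  obtain ⟨⟨a, b⟩, hp, ⟨_, b'⟩, hp', rfl, hne⟩ := h1
  have hb : b - b' ≠ 0 := fun e => hne (by rw [sub_eq_zero.1 e])
  rw [← Set.inter_union_diff P {p | p.1 = a}]
  refine (Set.ncard_union_le _ _).trans (Nat.add_le_add ?_ ?_)
  · exact (Set.ncard_le_ncard_of_injOn Prod.snd (fun _ _ => Set.mem_univ _) fun p hp p' hp' e =>
      Prod.ext (hp.2.trans hp'.2.symm) e).trans_eq (Set.ncard_univ _)
  let χ : K → K := fun d => if IsSquare d then 1 else -1
  rw [← SetLike.coe_sort_coe, Nat.card_coe_set_eq, ← Set.ncard_prod]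
  refine Set.ncard_le_ncard_of_injOn (fun p => (χ (p.1 - a) * ((b - b') / ((p.1 - a) *
    M.ψ (p.1 - a))), (p.2 - b) / ((p.1 - a) * M.ψ (p.1 - a)))) (fun p hp'' => ?_) ?_
  · have h2 := h _ hp _ hp''.1 (Ne.symm hp''.2)
    have h3 := M.I.sub_mem (h _ hp' _ hp''.1 (Ne.symm hp''.2)) h2
    rw [← sub_div, sub_sub_sub_cancel_left] at h3
    refine ⟨?_, h2⟩
    unfold χ
    split_ifs
    · rwa [one_mul]
    · rw [neg_one_mul]; exact M.I.neg_mem h3
  · rintro ⟨x, y⟩ hx ⟨x', y'⟩ hx' e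
    obtain ⟨e1, e2⟩ := Prod.mk.inj e
    have hd : x - a ≠ 0 := sub_ne_zero.2 hx.2
    have hd' : x' - a ≠ 0 := sub_ne_zero.2 hx'.2
    suffices x - a = x' - a by
      rw [← this, div_left_inj' (mul_ne_zero hd (M.ψ_ne_zero hd))] at e2
      exact Prod.ext (sub_left_injective this) (sub_left_injective e2)
    dsimp only at e1
    generalize x - a = d, x' - a = d' at hd hd' e1
    have h2 := M.ψ_ne_zero hd
    have h3 := M.ψ_ne_zero hd'
    have h4 : ∀ d, χ d * χ d = 1 := fun d => by unfold χ; split_ifs <;> simp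
    have h5 : d / d' * M.ψ (d / d') = χ d * χ d' := by
      rw [map_div₀]
      field_simp at e1 ⊢
      linear_combination -χ d' * e1 - d * M.ψ d * h4 d'
    have h6 : M.ψ (χ d * χ d') = χ d * χ d' := by unfold χ; split_ifs <;> simp
    have h7 := congrArg M.ψ h5
    rw [h6, map_mul, M.ψψ, ← h5] at h7
    have h8 : d / d' * (d / d') = 1 := mul_left_cancel₀
      (mul_ne_zero (div_ne_zero hd hd') (M.ψ_ne_zero (div_ne_zero hd hd'))) (by
        linear_combination h7)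
    rcases mul_self_eq_one_iff.1 h8 with h9 | h9
    · exact (div_eq_one_iff_eq hd').1 h9
    rw [h9, map_neg, map_one] at h5
    rw [div_eq_iff hd', neg_one_mul] at h9
    subst h9
    have h10 : ¬ (IsSquare (-d') ∧ IsSquare d') := fun ⟨⟨r, hr⟩, ⟨s, hs⟩⟩ =>
      M.sq_add_one_ne_zero (r / s) (by
        have : s ≠ 0 := by rintro rfl; simp [hs] at hd'
        field_simp; linear_combination -hr - hs)
    have h11 := M.isSquare_or d'
    have h12 := M.neg_one_ne_one
    exfalso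
    unfold χ at h5
    split_ifs at h5 with h13 h14 h14
    exacts [h10 ⟨h13, h14⟩, h12 (by linear_combination -h5), h12 (by linear_combination -h5),
      h11.elim h14 h13]

end Model

end Cfsg.Lib.Ree
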