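import Cfsg.Agent.Lib.Spec.PSL2

/-!
An extension of a 3-group by `2 × PSL₂(q)`, `q ≡ 3 (mod 24)` a power of 3, whose element orders
are the divisors of `6`, `9`, `q - 1` and `(q + 1) / 2`.
-/

set_option autoImplicit false

namespace Cfsg.Lib.Ree

open Matrix Finset Cfsg.Lib.Spec Cfsg.Lib.PSL2
open scoped MatrixGroups

variable {K : Type*} [Field K] [CharP K 3]

local notation "ι" => SpecialLinearGroup.coeMonoidHom
local notation "φ" => SpecialLinearGroup.map (frobenius K 3)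

omit [CharP K 3] in
theorem sl_sq (s : SL(2, K)) : ι s * ι s = (ι s).trace • ι s - 1 := by
  have h := s.det_coe
  rw [det_fin_two] at h
  ext i j
  fin_cases i <;> fin_cases j <;> simp [mul_apply, trace_fin_two] <;>
    first | ring1 | linear_combination -h

omit [CharP K 3] in
theorem neg_one_fin_two : (-1 : Matrix (Fin 2) (Fin 2) K) = !![-1, 0; 0, -1] := by
  ext i j; fin_cases i <;> fin_cases j <;> simp

variable (K) in
/-- The twisted tensor square of the natural module. -/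
noncomputable def tw₀ : SL(2, K) →* Module.End K (Matrix (Fin 2) (Fin 2) K) where
  toFun s := LinearMap.mulLeftRight K (ι s, ι (φ s⁻¹))
  map_one' := by ext1; simp
  map_mul' s t := by
    ext1
    simp only [_root_.mul_inv_rev, map_mul, LinearMap.mulLeftRight_apply, Module.End.mul_apply,
      Matrix.mul_assoc]

variable (K) in
/-- The twisted tensor square as a module for `2 × PSL₂`. -/
noncomputable def tw : ℤˣ × PSL(2, K) →* Module.End K (Matrix (Fin 2) (Fin 2) K) :=
  ((Int.castRingHom _).toMonoidHom.comp (Units.coeHom ℤ)).noncommCoprod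
    (QuotientGroup.lift _ (tw₀ K) fun s hs => by
      rcases toL_eq_one_iff.1 ((QuotientGroup.eq_one_iff s).2 hs) with rfl | rfl
      · exact map_one _
      · ext1; simp [tw₀, adjugate_fin_two, ← one_fin_two, ← neg_one_fin_two])
    fun _ _ => Int.cast_commute _ _

theorem tw_apply (e : ℤˣ) (s : SL(2, K)) (X : Matrix (Fin 2) (Fin 2) K) :
    tw K (e, toL s) X = ((e : ℤ) : K) • (ι s * X * ι (φ s⁻¹)) := by
  rw [Int.cast_smul_eq_zsmul]
  exact Module.End.intCast_apply ..

theorem eq_zero_of_tw (hK : ∀ x : K, x ^ 2 + 1 ≠ 0) {h : ℤˣ × PSL(2, K)} (h2 : h ^ 2 ≠ 1)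
    (h3 : h ^ 3 ≠ 1) {X : Matrix (Fin 2) (Fin 2) K} (e : tw K h X = X) : X = 0 := by
  obtain ⟨ε, s⟩ := h
  obtain ⟨s, rfl⟩ := toL_surjective s
  have hA := sl_sq s
  have hB := sl_sq (φ s)
  rw [show (ι (φ s)).trace = (ι s).trace ^ 3 from (AddMonoidHom.map_trace (frobenius K 3) _).symm]
    at hB
  set τ := (ι s).trace
  set c : K := ((ε : ℤ) : K)
  have hc : c * c = 1 := by rw [← Int.cast_mul, ← Units.val_mul, Int.units_mul_self]; simp
  have h1 : c • (ι s * X) = X * ι (φ s) := by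
    conv_rhs => rw [← e, tw_apply, smul_mul_assoc, Matrix.mul_assoc, ← map_mul, ← map_mul,
      inv_mul_cancel, map_one, map_one, mul_one]
  have h4 : (τ * (c * τ ^ 2 - 1)) • (ι s * X) = 0 := by
    have h5 : X * (ι (φ s) * ι (φ s)) = ι s * ι s * X := by
      rw [← Matrix.mul_assoc, ← h1, smul_mul_assoc, Matrix.mul_assoc, ← h1, mul_smul_comm, smul_smul,
        hc, one_smul, Matrix.mul_assoc]
    rw [hB, hA, mul_sub, mul_smul_comm, ← h1, sub_mul, smul_mul_assoc, mul_one, one_mul,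
      sub_left_inj, smul_smul, ← sub_eq_zero, ← sub_smul] at h5
    rw [← h5]
    congr 1
    ring
  have inj : Function.Injective (ι : SL(2, K) →* _) := SpecialLinearGroup.coeMonoidHom_injective
  have hn : ι (-1 : SL(2, K)) = -1 := by simp
  rcases smul_eq_zero.1 h4 with h5 | h5
  · exfalso
    rcases mul_eq_zero.1 h5 with h6 | h6
    · refine h2 (Prod.ext (Int.units_sq ε) (toL_eq_one_iff.2 (Or.inr (inj ?_)) : toL (s ^ 2) = 1))
      rw [map_pow, sq, hA, h6, hn, zero_smul, zero_sub]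
    rcases Int.units_eq_one_or ε with rfl | rfl
    · replace h6 : τ ^ 2 = 1 := by simpa [c, sub_eq_zero] using h6
      have h7 : ι (s ^ 3) = -τ • 1 := by
        rw [map_pow, pow_three, hA, mul_sub, mul_smul_comm, hA, smul_sub, smul_smul, ← sq, h6]
        simp
      refine h3 (Prod.ext (one_pow 3) (toL_eq_one_iff.2 ?_ : toL (s ^ 3) = 1))
      rcases sq_eq_one_iff.1 h6 with h | h
      · exact Or.inr (inj (by rw [h7, h, hn, neg_smul, one_smul]))
      · exact Or.inl (inj (by rw [h7, h, neg_neg, one_smul, map_one]))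
    · exact hK τ (by simp only [c, Units.val_neg, Units.val_one, Int.cast_neg, Int.cast_one] at h6
                     linear_combination -h6)
  · rw [← one_mul X, ← map_one ι, ← inv_mul_cancel s, map_mul, Matrix.mul_assoc, h5, Matrix.mul_zero]

variable [Finite K]

theorem exists_cusp (hq : Nat.card K % 8 = 3) : ∃ (d : ℤˣ × PSL(2, K) → ℕ) (f : ℤˣ × PSL(2, K) → K),
    f ∈ cusp K d ∧ f ≠ 0 ∧ sp (CuspExt K d) =
      {n | n ∣ 6 ∨ n ∣ 9 ∨ n ∣ Nat.card K - 1 ∨ n ∣ (Nat.card K + 1) / 2} := by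
  classical
  have h0 : (3 : K) = 0 := CharP.cast_eq_zero K 3
  have hK : ∀ x : K, x ^ 2 + 1 ≠ 0 := fun x hx => by
    have := Fintype.ofFinite K
    refine FiniteField.isSquare_neg_one_iff.1 ⟨x, by linear_combination -hx⟩ ?_
    rw [← Nat.card_eq_fintype_card]
    omega
  have hg : Nat.gcd 2 (Nat.card K - 1) = 2 := Nat.gcd_eq_left (by omega)
  have hs := sp_psl2 (F := K) 3
  rw [hg] at hs
  have h2 : orderOf (-1 : ℤˣ) = 2 := orderOf_eq_prime (by simp) (by decide)
  have hf : (fun g => tw K g !![0, 0; 1, 0] 0 1) ∈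
      cusp K fun h : ℤˣ × PSL(2, K) => if h ^ 2 = 1 ∨ h ^ 3 = 1 then 3 else 1 := fun h y w => by
    dsimp only
    split_ifs with h1
    · rw [nsmul_eq_mul, Nat.cast_ofNat, h0, zero_mul]
    rw [not_or] at h1
    have h3 := eq_zero_of_tw hK h1.1 h1.2
      (X := (∑ i ∈ range (orderOf h), tw K h ^ i) (tw K w !![0, 0; 1, 0])) (by
        rw [← Module.End.mul_apply, ← sub_eq_zero, ← LinearMap.sub_apply, ← sub_one_mul, mul_geom_sum,
          ← map_pow, pow_orderOf_eq_one, map_one, sub_self, LinearMap.zero_apply])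
    have h4 := congrArg (fun X => tw K y X 0 1) h3
    simpa [Matrix.sum_apply] using h4
  obtain ⟨u, hu⟩ : ∃ u : SL(2, K), ι u = !![1, 1; 0, 1] := ⟨⟨_, by simp [det_fin_two]⟩, rfl⟩
  have hu' : ι (φ u⁻¹) = !![1, -1; 0, 1] := by
    rw [SpecialLinearGroup.coeMonoidHom_apply] at hu
    ext i j; fin_cases i <;> fin_cases j <;> simp [adjugate_fin_two, hu]
  have h3 : ∀ n : ℕ, tw K ((1, toL u) ^ n) !![0, 0; 1, 0] 0 1 = -n ^ 2 := fun n => by
    have h3 : ∀ c : K, !![1, c; 0, 1] ^ n = !![1, n * c; 0, 1] := fun c => by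
      induction n with
      | zero => simp [one_fin_two]
      | succ n ih => simp [pow_succ, ih, add_mul, add_comm]
    rw [Prod.pow_mk, ← map_pow, tw_apply, ← inv_pow, map_pow, map_pow, map_pow, hu, hu', h3, h3]
    simp [sq]
  have h4 : orderOf ((1, toL u) : ℤˣ × PSL(2, K)) = 3 := orderOf_eq_prime
    (Prod.ext (one_pow 3) (toL_eq_one_iff.2 (Or.inl (SpecialLinearGroup.coeMonoidHom_injective (by
      rw [map_pow, hu, map_one, one_fin_two, pow_three]
      simpa using (by linear_combination h0 : (1 : K) + 1 + 1 = 0)))) : toL (u ^ 3) = 1))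
    fun e => by have := h3 1; rw [e] at this; simp at this
  have h5 : ∀ b ∈ sp PSL(2, K), ∃ h : ℤˣ × PSL(2, K), orderOf h = Nat.lcm 2 b := fun b hb =>
    mem_sp_prod.2 ⟨2, ⟨_, h2⟩, b, hb, rfl⟩
  refine ⟨_, _, hf, fun e => by simpa using (congrFun e _).symm.trans (h3 1), sp_cusp' _ ?_ hf ?_⟩
  · intro h e he
    split_ifs at he with h6
    · rcases h6 with h6 | h6
      · exact Or.inl (mul_dvd_mul (orderOf_dvd_of_pow_eq_one h6) he)
      · exact Or.inr (Or.inl (mul_dvd_mul (orderOf_dvd_of_pow_eq_one h6) he))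
    obtain ⟨_, ⟨a, rfl⟩, b, hb, h7⟩ := mem_sp_prod.1 (orderOf_mem_sp h)
    have ha : orderOf a ∣ 2 := orderOf_dvd_of_pow_eq_one (Int.units_sq a)
    rw [Nat.dvd_one.1 he, mul_one, h7]
    rcases hs.subset hb with h8 | h8 | h8
    · exact Or.inl (Nat.lcm_dvd (ha.trans (by norm_num)) (h8.trans (by norm_num)))
    · exact Or.inr (Or.inr (Or.inl (Nat.lcm_dvd (ha.trans (by omega))
        (h8.trans (Nat.div_dvd_of_dvd (by omega))))))
    · exact Or.inr (Or.inr (Or.inr (Nat.lcm_dvd (ha.trans (by omega)) h8)))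
  · rintro n (h | h | h | h)
    · obtain ⟨g, hg⟩ := h5 3 (hs.superset (Or.inl dvd_rfl))
      exact ⟨g, 1, 1, (h.trans (dvd_of_eq hg.symm)).mul_right _⟩
    · refine ⟨(1, toL u), 1, 1, ?_⟩
      simp only [one_mul, mul_one, h3, h4]
      rwa [addOrderOf_eq_char 3 fun e => one_ne_zero (α := K) (by
        simp only [sum_range_succ, sum_range_zero] at e
        push_cast at e
        linear_combination e + 2 * h0)]
    · obtain ⟨g, hg⟩ := h5 _ (hs.superset (Or.inr (Or.inl dvd_rfl)))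
      rw [((Nat.coprime_two_left).2 (Nat.odd_iff.2 (by omega))).lcm_eq_mul,
        Nat.mul_div_cancel' (by omega)] at hg
      exact ⟨g, 1, 1, (hg ▸ h :).mul_right _⟩
    · obtain ⟨g, hg⟩ := h5 _ (hs.superset (Or.inr (Or.inr dvd_rfl)))
      exact ⟨g, 1, 1, (h.trans (hg ▸ Nat.dvd_lcm_right ..)).mul_right _⟩

theorem unb_ree (hq : Nat.card K % 8 = 3) :
    Unb {n | n ∣ 6 ∨ n ∣ 9 ∨ n ∣ Nat.card K - 1 ∨ n ∣ (Nat.card K + 1) / 2} := by
  obtain ⟨d, f, h1, h2, h3⟩ := exists_cusp hq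
  exact h3 ▸ unb_cusp d h1 h2

end Cfsg.Lib.Ree
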