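import Cfsg.Agent.Lib.Ree.TrCl
import Cfsg.Agent.Lib.Ree.BCl
import Cfsg.Agent.Lib.St.Gow
import Cfsg.Agent.Lib.St.Lie

/-!
Squares of the regular semisimple classes of the small Ree groups.
-/

set_option autoImplicit false

namespace Cfsg.Lib.Ree

open Subgroup Cfsg.Lib.St

variable {K : Type*} [Field K] {G : Type*} [Group G]

/-- `g` is a quotient of two conjugates of `x`. -/
def Good (x g : G) : Prop := ∃ y, IsConj x y ∧ IsConj x (y * g)

theorem Good.inv {x g : G} (h : Good x g) : Good x g⁻¹ :=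
  let ⟨y, h1, h2⟩ := h; ⟨y * g, h2, by rwa [mul_inv_cancel_right]⟩

theorem Good.of_isConj {x g g' : G} (h : Good x g) (e : IsConj g g') : Good x g' := by
  obtain ⟨y, h1, h2⟩ := h
  obtain ⟨z, rfl⟩ := isConj_iff.1 e
  exact ⟨z * y * z⁻¹, h1.trans (isConj_iff.2 ⟨z, rfl⟩),
    by rw [conj_mul]; exact h2.trans (isConj_iff.2 ⟨z, rfl⟩)⟩

theorem Good.of_or {x g g' : G} (h : Good x g) (e : IsConj g g' ∨ IsConj g⁻¹ g') : Good x g' :=
  e.elim h.of_isConj h.inv.of_isConj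

namespace Model

variable (M : Model K G)

/-- The parameters of the conjugates of `x` in `w * h l * U`. -/
def S (x : G) (l : Kˣ) : Set (K × K × K) := {p | IsConj x (M.w * M.h l * M.u p.1 p.2.1 p.2.2)}

/-- The projection of `S`. -/
def P (x : G) (l : Kˣ) : Set (K × K) := (fun p => (p.1, p.2.1 - p.1 * M.ψ p.1)) '' M.S x l

variable {M} {x : G}

theorem conj_mem_S {l : Kˣ} {a b c : K} (h : (a, b, c) ∈ M.S x l) (k : Kˣ) :
    (k * a, k * M.ψ k * b, k ^ 2 * M.ψ k * c) ∈ M.S x (l * k⁻¹ ^ 2) :=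
  IsConj.trans h (isConj_iff.2 ⟨M.h k, by
    rw [← M.h_u, sq, mul_comm l, mul_assoc k⁻¹, mul_comm k⁻¹ l, map_mul, map_mul, ← mul_assoc M.w,
      ← M.h_mul_w, map_inv]
    group⟩)

theorem good_u {l : Kˣ} {a b c a' b' c' : K} (h : (a, b, c) ∈ M.S x l)
    (h' : (a', b', c') ∈ M.S x l) : ∃ z, Good x (M.u (a' - a) (b' - b + a * M.ψ (a' - a)) z) := by
  have : Good x ((M.u a b c)⁻¹ * M.u a' b' c') := ⟨_, h, by rwa [mul_assoc, mul_inv_cancel_left]⟩
  rw [u_inv, M.u_mul] at this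
  exact ⟨_, by convert this using 2; exacts [by ring, by rw [map_sub]; ring]⟩

theorem good_six {l : Kˣ} {a b c a' b' c' : K} (h : (a, b, c) ∈ M.S x l)
    (h' : (a', b', c') ∈ M.S x (-l)) :
    Good x (M.u 0 (b' - b - (a' - a) * M.ψ (a' + a)) 0 * M.a) := by
  have : Good x ((M.u a b c)⁻¹ * M.u (-a') b' (-c') * M.a) := ⟨_, h, by
    rw [mul_assoc (M.u a b c)⁻¹, mul_assoc, mul_inv_cancel_left, ← a_mul_u, ← mul_assoc,
      mul_assoc M.w, Model.a, ← map_mul, mul_neg_one]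
    exact h'⟩
  rw [u_inv, M.u_mul] at this
  refine this.of_isConj (IsConj.symm (isConj_iff.2 ?_))
  generalize (-c - a * b + a ^ 2 * M.ψ a + -c' - -a' * (-b - a * M.ψ a) - (-a) ^ 2 * M.ψ (-a') +
    -a * -a' * M.ψ (-a')) = z
  refine ⟨M.u (a + a') 0 ((-a + -a') * (-b - a * M.ψ a + b' - -a * M.ψ (-a')) - z), ?_⟩
  rw [mul_inv_eq_iff_eq_mul, mul_assoc, a_mul_u, ← mul_assoc, ← mul_assoc, M.u_mul, M.u_mul,
    mul_left_inj, u_inj]
  simp only [map_neg, map_add, map_zero]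
  refine ⟨?_, ?_, ?_⟩
  · linear_combination (a + a') * M.three
  · linear_combination (a * M.ψ a' + a * M.ψ a) * M.three
  · linear_combination ((a + a') * (a * M.ψ a + a * M.ψ a' + b - b') - z) * M.three

theorem exists_mem_S {y : G} (hy : y ∉ M.B) : ∃ v ∈ M.U, ∃ l a b c,
    y = v * (M.w * M.h l * M.u a b c) * v⁻¹ := by
  obtain ⟨a, b, c, l, rfl | ⟨a', b', c', rfl⟩⟩ := M.bruhat y
  · exact absurd (M.mem_B'.2 ⟨_, _, _, _, rfl⟩) hy
  obtain ⟨x, y, z, e⟩ := M.U.mul_mem (M.u_mem_U a' b' c') (M.u_mem_U a b c)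
  exact ⟨_, M.u_mem_U a b c, l⁻¹, x, y, z, by rw [← e, ← M.h_mul_w]; group⟩

variable [Finite K]

theorem exists_big (hq : 27 ≤ Nat.card K) {r : ℕ} (hr : r ^ 2 = 3 * Nat.card K)
    (hx : Nat.card (centralizer {x}) ≤ Nat.card K + r + 1) :
    ∃ l, 2 * Nat.card K ^ 2 < 3 * (M.S x l).ncard := by
  classical
  have := M.finite
  have := Fintype.ofFinite K
  by_contra! h
  have h1 := card_eq_ncard_mul ⊤ x
  rw [top_inf_eq, card_top, M.card_G] at h1
  have h2 : {y | ∃ n ∈ (⊤ : Subgroup G), n * x * n⁻¹ = y} ⊆ M.B ∪ ⋃ i : M.U × Kˣ,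
      (fun p => i.1 * (M.w * M.h i.2 * M.u p.1 p.2.1 p.2.2) * (i.1 : G)⁻¹) '' M.S x i.2 := by
    rintro y ⟨n, -, hn⟩
    refine or_iff_not_imp_left.2 fun hy => ?_
    obtain ⟨v, hv, l, a, b, c, e⟩ := exists_mem_S hy
    exact Set.mem_iUnion.2 ⟨(⟨v, hv⟩, l), (a, b, c), (isConj_iff.2 ⟨n, hn⟩).trans
      (isConj_iff.2 ⟨v, e.symm⟩).symm, e.symm⟩
  have := Fintype.ofFinite M.U
  have h3 := (Set.ncard_le_ncard h2).trans ((Set.ncard_union_le _ _).trans (Nat.add_le_add_left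
    ((Set.ncard_iUnion_le_of_fintype _).trans (Finset.sum_le_card_nsmul _ _
      (2 * Nat.card K ^ 2 / 3) fun i _ => (Set.ncard_image_le (Set.toFinite _)).trans
        ((Nat.le_div_iff_mul_le three_pos).2 (mul_comm 3 _ ▸ h i.2)))) _))
  rw [← Nat.card_coe_set_eq, ← Nat.card_coe_set_eq (M.B : Set G), SetLike.coe_sort_coe, M.card_B,
    Finset.card_univ, ← Nat.card_eq_fintype_card, Nat.card_prod, M.card_U, Nat.card_units,
    smul_eq_mul, ← mul_one_add, Nat.card_coe_set_eq] at h3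
  have h4 := h1.trans_le (Nat.mul_le_mul h3 hx)
  rw [mul_assoc _ (1 + _)] at h4
  have h5 := Nat.le_of_mul_le_mul_left h4 (Nat.mul_pos (by positivity) (by omega))
  have h6 := Nat.div_mul_le_self (2 * Nat.card K ^ 2) 3
  have h7 : 3 * r ≤ Nat.card K := by nlinarith
  generalize 2 * Nat.card K ^ 2 / 3 = n at h5 h6
  generalize Nat.card K = q at h5 h6 h7 hq
  have h8 := Nat.mul_le_mul (show 3 * (1 + n) ≤ 2 * q ^ 2 + 3 by omega)
    (show 3 * (q + r + 1) ≤ 4 * q + 3 by omega)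
  nlinarith [Nat.mul_le_mul_right (q ^ 2) hq, Nat.mul_le_mul_right q hq]

theorem ncard_S_le (T : Tr M) (x : G) (l : Kˣ) : (M.S x l).ncard ≤ 4 * (M.P x l).ncard := by
  classical
  have := Fintype.ofFinite K
  rw [P, Set.ncard_eq_toFinset_card', Set.ncard_eq_toFinset_card', Set.toFinset_image]
  refine Finset.card_le_mul_card_image _ _ fun ⟨a, b⟩ _ => ?_
  have h1 := l.ne_zero
  have h2 := M.ψ_ne_zero h1
  refine le_trans ?_ (ncard_le_four M.ψ M.ψψ a (a * (b + a * M.ψ a) - M.ψ a / l)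
    ((-1 - T.τ x - l * M.ψ l * (a * (b + a * M.ψ a) * M.ψ a - (b + a * M.ψ a) ^ 2) + l * a ^ 2) /
      (l ^ 2 * M.ψ l) - (a ^ 4 * M.ψ a ^ 2 - a ^ 3 * (b + a * M.ψ a) * M.ψ a -
        (b + a * M.ψ a) * M.ψ (b + a * M.ψ a))))
  rw [← Set.ncard_coe_finset]
  refine Set.ncard_le_ncard_of_injOn (fun p => p.2.2) ?_ ?_
  · rintro ⟨a', b', c⟩ hp
    simp only [Finset.coe_filter, Set.mem_toFinset, Set.mem_ofPred_eq, Prod.mk.injEq] at hp
    obtain ⟨hp, rfl, rfl⟩ := hp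
    rw [T.of_isConj hp, T.big, sub_add_cancel, Set.mem_ofPred_eq]
    field_simp
    ring
  · rintro ⟨a', b', c⟩ hp ⟨a'', b'', c'⟩ hp' rfl
    simp only [Finset.coe_filter, Set.mem_toFinset, Set.mem_ofPred_eq, Prod.mk.injEq] at hp hp'
    obtain ⟨-, rfl, rfl⟩ := hp
    obtain ⟨-, rfl, h⟩ := hp'
    rw [sub_left_injective h]

theorem good (T : Tr M) (L : LieP 3 G) (hq : 27 ≤ Nat.card K) {r : ℕ} (hr : r ^ 2 = 3 * Nat.card K)
    (hx : Reg x) {g : G} (hg : g ≠ 1) : ∃ u v, IsConj x u ∧ IsConj x v ∧ u * v = g := by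
  have := M.finite
  have := Fact.mk Nat.prime_three
  have hq3 : 3 < Nat.card K := by omega
  have := M.simple hq3
  obtain ⟨-, ht, hτ⟩ := T.τ_reg hq3 hr hx
  obtain ⟨hc, hc3⟩ := M.card_centralizer_reg hq3 hr hx
  have hinv : ∀ y, IsConj x y → IsConj x y⁻¹ := fun y h =>
    hτ _ ((T.τ_inv y).trans (T.of_isConj h).symm)
  have gow : ∀ g : G, g ≠ 1 → ¬ 3 ∣ orderOf g → ∃ u v, IsConj x u ∧ IsConj x v ∧ u * v = g :=
    fun g h1 h3 => L.gow L.normalClosure_U hc3 hc3 h3 fun e => h1 (by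
      rcases (inferInstance : (center G).Normal).eq_bot_or_eq_top with h | h
      · rwa [h] at e
      · exact absurd ⟨⟨fun a b => mem_center_iff.1 (h.ge (mem_top b)) a⟩⟩ M.not_isMulCommutative)
  by_cases h3 : 3 ∣ orderOf g
  swap
  · exact gow g hg h3
  suffices Good x g from let ⟨y, h1, h2⟩ := this; ⟨y⁻¹, _, hinv y h1, h2, inv_mul_cancel_left ..⟩
  obtain ⟨l, hl⟩ := exists_big (M := M) hq hr hc
  have h4 := ncard_S_le T x l
  have hI := M.three_mul_card_I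
  have h5 : Nat.card K + Nat.card M.I * Nat.card M.I < (M.P x l).ncard := by
    generalize Nat.card K = q, Nat.card M.I = n at *
    subst hI
    nlinarith [Nat.mul_le_mul_right n hq]
  have h6 : ∃ a b c b' c', (a, b, c) ∈ M.S x l ∧ (a, b', c') ∈ M.S x l ∧ b' ≠ b := by
    by_contra! h
    refine h5.not_ge (((Set.ncard_le_ncard_of_injOn Prod.fst (fun _ _ => Set.mem_univ _) ?_).trans_eq
      (Set.ncard_univ _)).trans (Nat.le_add_right ..))
    rintro _ ⟨⟨a, b, c⟩, hp, rfl⟩ _ ⟨⟨_, b', c'⟩, hp', rfl⟩ rfl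
    rw [h _ _ _ _ _ hp hp']
  have h7 : ∃ a b c, (a, b, c) ∈ M.S x l ∧ a ≠ 0 := by
    by_contra! h
    refine h5.not_ge (((Set.ncard_le_ncard_of_injOn Prod.snd (fun _ _ => Set.mem_univ _) ?_).trans_eq
      (Set.ncard_univ _)).trans (Nat.le_add_right ..))
    rintro _ ⟨⟨a, b, c⟩, hp, rfl⟩ _ ⟨⟨a', b', c'⟩, hp', rfl⟩ e
    exact Prod.ext ((h _ _ _ hp).trans (h _ _ _ hp').symm) e
  have h8 : ∀ {a b c a' b' c'}, (a, b, c) ∈ M.S x l → (a', b', c') ∈ M.S x l → a ≠ a' →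
      ∀ {d e : K} (f : K), d ≠ 0 → (b' - a' * M.ψ a' - (b - a * M.ψ a)) / ((a' - a) * M.ψ (a' - a))
        - (e - d * M.ψ d) / (d * M.ψ d) ∈ M.I → Good x (M.u d e f) := by
    intro a b c a' b' c' hp hp' hne d e f hd h
    obtain ⟨z, hz⟩ := good_u hp hp'
    have h1 := sub_ne_zero.2 hne.symm
    have h2 := M.ψ_ne_zero h1
    have h3 := M.ψ_ne_zero hd
    refine hz.of_isConj (M.isConj_nine h1 hd ?_ _ _)
    convert M.I.add_mem h (M.mem_I.2 ⟨a / (a' - a), rfl⟩) using 1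
    rw [map_div₀]
    field_simp
    rw [map_sub]
    linear_combination a * (M.ψ a' - M.ψ a) * d * M.ψ d * M.three
  obtain ⟨y, hy⟩ := M.exists_conj_mem_B h3
  refine Good.of_isConj ?_ (isConj_iff.2 ⟨y, rfl⟩).symm
  rw [← orderOf_conj y] at h3
  rw [Ne, ← conj_eq_one_iff (a := y)] at hg
  generalize y * g * y⁻¹ = g at *
  rcases M.cases_B hy with ⟨d, e, f, rfl⟩ | ⟨z, -, b, rfl⟩ | ⟨z, -, k, -, -, rfl⟩
  · by_cases hd : d = 0
    · subst hd
      by_cases he : e = 0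
      · subst he
        obtain ⟨k, c, h1, -, h2⟩ := T.exists_τ_eq (T.τ x)
        have h9 : c ≠ 0 := by
          rintro rfl
          exact mul_ne_zero (fun e => ht (eq_neg_of_add_eq_zero_left e)) k.ne_zero
            (h1.symm.trans (by simp))
        refine Good.of_isConj (g := M.u 0 0 c) ⟨_, hτ _ (h2 c rfl), hτ _ ?_⟩
          (M.isConj_center h9 fun e => hg (by simp [e]))
        rw [mul_assoc, u_mul_zero, add_zero]
        exact h2 _ (by linear_combination c ^ 2 * M.three)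
      · obtain ⟨a, b, c, b', c', hp, hp', hne⟩ := h6
        obtain ⟨z, hz⟩ := good_u hp hp'
        rw [sub_self, map_zero, mul_zero, add_zero] at hz
        exact hz.of_or (M.isConj_T (sub_ne_zero.2 hne) he ..)
    by_cases hι : (e - d * M.ψ d) / (d * M.ψ d) ∈ M.I
    · obtain ⟨a, b, c, hp, ha⟩ := h7
      have hp' : (-a, b, -c) ∈ M.S x l := by simpa using conj_mem_S hp (-1)
      exact h8 hp hp' (fun e => ha (M.neg_eq_self.1 e.symm)) f hd (by simpa using hι)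
    · have h9 := mt M.ncard_le_of_mem_I h5.not_ge
      push Not at h9
      obtain ⟨_, ⟨⟨a, b, c⟩, hp, rfl⟩, _, ⟨⟨a', b', c'⟩, hp', rfl⟩, hne, h⟩ := h9
      rcases M.sub_mem_or h hι with h | h
      · exact h8 hp hp' hne f hd h
      · rw [← inv_inv (M.u d e f), M.u_inv]
        refine (h8 hp hp' hne _ (neg_ne_zero.2 hd) ?_).inv
        convert h using 1
        rw [map_neg, sub_eq_add_neg, ← neg_div, neg_mul_neg]
        congr 2
        linear_combination d * M.ψ d * M.three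
  · refine Good.of_isConj ?_ (isConj_iff.2 ⟨z, rfl⟩)
    rw [orderOf_conj] at h3
    have hb : b ≠ 0 := by rintro rfl; simp [M.orderOf_a] at h3
    obtain ⟨y, hy, hy', hB⟩ : ∃ y, IsConj x y ∧ IsConj x (y * M.a) ∧ y ∉ M.B := by
      obtain ⟨u, v, h1, h2, e⟩ := gow M.a M.a_ne_one (by simp [M.orderOf_a])
      have h9 := hinv u h1
      rw [eq_inv_mul_of_mul_eq e] at h2
      generalize u⁻¹ = y at *
      by_contra! h
      have key : ∀ z, z * M.a = M.a * z → y • z • M.inf = z • M.inf := fun z hz => by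
        rw [← inv_smul_eq_iff, ← mul_smul, ← mul_smul, ← M.mem_B]
        refine h _ (h9.trans (isConj_iff.2 ⟨z⁻¹, by rw [inv_inv]⟩)) (h2.trans (isConj_iff.2
          ⟨z⁻¹, by rw [inv_inv, mul_assoc, mul_assoc, ← hz]; group⟩))
      have h10 := M.eq_conj_a_of_fix_three (g := y) (y := 1) (p := M.pt 0 1 0)
        (by simpa using M.pt_ne_inf 0 1 0) (by simp [M.pt_eq_zero]) (key 1 (by simp))
        (by simpa using key _ M.w_mul_a) (by
          simpa [mul_smul, u_smul_zero] using key (M.u 0 1 0 * M.w) (by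
            rw [mul_assoc, w_mul_a, ← mul_assoc, M.u_mul_a_iff.2 ⟨rfl, rfl⟩, mul_assoc]))
      apply hx.2
      obtain ⟨n, hn⟩ := isConj_iff.1 h9
      rw [← orderOf_conj n, hn]
      rcases h10 with rfl | rfl <;> simp [M.orderOf_a]
    obtain ⟨v, hv, k, a, b', c, rfl⟩ := exists_mem_S hB
    have h9 : (M.S x k).Nonempty := ⟨(a, b', c), hy.trans (isConj_iff.2 ⟨v, rfl⟩).symm⟩
    have h10 : (M.S x (-k)).Nonempty := by
      obtain ⟨a', b', c', e⟩ : M.a * (M.u a b' c * v⁻¹) * M.a⁻¹ * v ∈ M.U :=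
        mul_mem (M.conj_mem_U M.a_mem_B (mul_mem (M.u_mem_U ..) (inv_mem hv))) hv
      refine ⟨(a', b', c'), hy'.trans (isConj_iff.2 ⟨v⁻¹, ?_⟩)⟩
      rw [← e, ← mul_neg_one, map_mul, ← Model.a, a_inv]
      simp only [mul_assoc, inv_mul_cancel_left, inv_inv, ← mul_assoc M.a M.a, a_mul_a, one_mul]
    obtain ⟨⟨a', b'', c'⟩, hp⟩ : (M.S x (-l)).Nonempty := by
      have key : ∀ k : Kˣ, (M.S x k).Nonempty → IsSquare ((k : K) / (-l)) →
          (M.S x (-l)).Nonempty := by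
        rintro k ⟨⟨a, b, c⟩, hp⟩ ⟨s, hs⟩
        have hs0 : s ≠ 0 := by rintro rfl; simp at hs
        have := conj_mem_S hp (Units.mk0 s hs0)
        rw [show k * (Units.mk0 s hs0)⁻¹ ^ 2 = -l from Units.ext (by
          rw [div_eq_iff (by simp)] at hs
          simp [hs]; field_simp)] at this
        exact ⟨_, this⟩
      exact (M.isSquare_or ((k : K) / (-l))).elim (key k h9) fun h =>
        key _ h10 (by rwa [Units.val_neg, neg_div])
    obtain ⟨a, b, c, b', c'', hp1, hp2, hne⟩ := h6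
    by_cases h11 : b'' - b - (a' - a) * M.ψ (a' + a) = 0
    · exact (good_six hp2 hp).of_or (M.isConj_six (fun e => hne (by linear_combination h11 - e)) hb)
    · exact (good_six hp1 hp).of_or (M.isConj_six h11 hb)
  · have := M.card_mod
    rw [orderOf_conj] at h3
    have := h3.trans (M.orderOf_dvd_of_mem_H (M.h_mem_H k))
    omega

end Model

end Cfsg.Lib.Ree
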