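import Cfsg.Agent.Lib.Ree.Mat7

/-!
The trace of the seven-dimensional representation of a small Ree group.
-/

namespace Cfsg.Lib.Ree

open Cfsg.Lie Cfsg.Lib.Chev Cfsg.Lib.Chev.RootSys Cfsg.Lib.Twisted Equiv Twist

variable {K : Type*} [Field K]

theorem rep7_pU (h3 : (3 : K) = 0) (a b c d e f : K) : rep7 h3 (pU a b c d e f) =
    !![1, a * c - d, -a * b + c, a, 0, 0, 0;
    0, 1, 0, 0, 0, 0, 0;
    0, -a, 1, 0, 0, 0, 0;
    0, c, -b, 1, 0, 0, 0;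
    a, -a ^ 2 * c - a * d + e, a ^ 2 * b + a * c + d, -a ^ 2, 1, 0, 0;
    c, b * e - c * d + f, b * d - c ^ 2, -d, b, 1, 0;
    a * c - d, a * b * e - a * c * d + a * f - c * e - d ^ 2, a * b * d - a * c ^ 2 - c * d - f,
      -a * d - e, a * b - c, a, 1] := by
  simp only [pU, map_mul, rep7_x6, rep7_x7, rep7_x8, rep7_x9, rep7_x10, rep7_x11, mul_fin_seven,
    mul_zero, zero_mul, add_zero, zero_add, one_mul, mul_one]
  ring_nf

theorem rep7_n (h3 : (3 : K) = 0) (φ : K →+* K) : rep7 h3 (nG2 φ) =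
    !![-1, 0, 0, 0, 0, 0, 0; 0, 0, 0, 0, 0, 0, -1; 0, 0, 0, 0, 0, -1, 0; 0, 0, 0, 0, -1, 0, 0;
      0, 0, 0, -1, 0, 0, 0; 0, 0, -1, 0, 0, 0, 0; 0, -1, 0, 0, 0, 0, 0] := by
  have h2 : (1 : K) + 1 = -1 := by linear_combination h3
  simp only [nG2, uG2, vG2, pV, map_mul, rep7_pU, map_zero, map_one, neg_zero, mul_zero, add_zero,
    zero_add, PreSys.x_zero, one_mul, mul_one, rep7_x1, rep7_x3, mul_fin_seven, zero_mul, sub_zero,
    zero_sub, zero_pow two_ne_zero, one_pow, _root_.neg_neg, mul_neg, neg_mul, even_two.neg_pow,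
    add_neg_cancel, neg_add_cancel, h2]

theorem rep7_h7 (h3 : (3 : K) = 0) (s : Kˣ) : rep7 h3 ((CG2 K).h (7 : Fin 12) s) =
    !![1, 0, 0, 0, 0, 0, 0; 0, (s : K)⁻¹, 0, 0, 0, 0, 0; 0, 0, s, 0, 0, 0, 0;
      0, 0, 0, ((s : K)⁻¹) ^ 2, 0, 0, 0; 0, 0, 0, 0, s ^ 2, 0, 0;
      0, 0, 0, 0, 0, (s : K)⁻¹, 0; 0, 0, 0, 0, 0, 0, s] := by
  have hs := s.ne_zero
  have h2 : (1 : K) + 1 = -1 := by linear_combination h3
  have h4 : (s : K) * (s : K)⁻¹ ^ 2 = (s : K)⁻¹ := by field_simp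
  have h5 : (s : K)⁻¹ ^ 2 * s = (s : K)⁻¹ := by field_simp
  have h6 : (s : K)⁻¹ ^ 2 * s ^ 2 = 1 := by field_simp
  have h7 : (s : K) ^ 2 * (s : K)⁻¹ ^ 2 = 1 := by field_simp
  have h8 : (s : K) ^ 2 * (s : K)⁻¹ = s := by field_simp
  simp only [PreSys.h, PreSys.n, neg_G2, show (7 : Fin 12).rev = 4 from rfl, map_mul,
    rep7_x4, rep7_x7, mul_fin_seven, Units.val_neg, Units.val_one, inv_neg, inv_one,
    Units.val_inv_eq_inv_val, mul_zero, zero_mul, add_zero, zero_add, one_mul, mul_one, _root_.neg_neg,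
    mul_neg, neg_mul, even_two.neg_pow, one_pow, add_neg_cancel, neg_add_cancel,
    mul_inv_cancel₀ hs, inv_mul_cancel₀ hs, neg_zero, h2, h4, h5, h6, h7, h8]

theorem rep7_h6 (h3 : (3 : K) = 0) (t : Kˣ) : rep7 h3 ((CG2 K).h (6 : Fin 12) t) =
    !![1, 0, 0, 0, 0, 0, 0; 0, 1, 0, 0, 0, 0, 0; 0, 0, (t : K)⁻¹, 0, 0, 0, 0;
      0, 0, 0, t, 0, 0, 0; 0, 0, 0, 0, (t : K)⁻¹, 0, 0;
      0, 0, 0, 0, 0, t, 0; 0, 0, 0, 0, 0, 0, 1] := by
  have hs := t.ne_zero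
  simp only [PreSys.h, PreSys.n, neg_G2, show (6 : Fin 12).rev = 5 from rfl, map_mul,
    rep7_x5, rep7_x6, mul_fin_seven, Units.val_neg, Units.val_one, inv_neg, inv_one,
    Units.val_inv_eq_inv_val, mul_zero, zero_mul, add_zero, zero_add, one_mul, mul_one, _root_.neg_neg,
    mul_neg, neg_mul, even_two.neg_pow, one_pow, add_neg_cancel, neg_add_cancel,
    mul_inv_cancel₀ hs, inv_mul_cancel₀ hs, neg_zero]

theorem rep7_tor (h3 : (3 : K) = 0) (s t : Kˣ) : rep7 h3 (tor adjoint_G2 ![s, t]) =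
    !![1, 0, 0, 0, 0, 0, 0; 0, (s : K)⁻¹, 0, 0, 0, 0, 0; 0, 0, s * (t : K)⁻¹, 0, 0, 0, 0;
      0, 0, 0, ((s : K)⁻¹) ^ 2 * t, 0, 0, 0; 0, 0, 0, 0, s ^ 2 * (t : K)⁻¹, 0, 0;
      0, 0, 0, 0, 0, (s : K)⁻¹ * t, 0; 0, 0, 0, 0, 0, 0, s] := by
  have h2 : (![s, t] : Fin 2 → Kˣ) = Pi.mulSingle 0 s * Pi.mulSingle 1 t := by
    funext i
    fin_cases i <;> simp
  rw [h2, map_mul, tor_mulSingle, tor_mulSingle, map_mul, simple_G2, simple_G2]
  refine (congrArg₂ (· * ·) (rep7_h7 h3 s) (rep7_h6 h3 t)).trans ?_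
  simp only [mul_fin_seven, mul_zero, zero_mul, add_zero, zero_add, one_mul, mul_one]

/-- A class function with the values of the trace of the seven-dimensional representation. -/
structure Tr {G : Type*} [Group G] (M : Model K G) where
  τ : G → K
  conj : ∀ x g, τ (x * g * x⁻¹) = τ g
  big : ∀ (l : Kˣ) a b c, τ (M.w * M.h l * M.u a b c) = -1 - l ^ 2 * M.ψ l * (a ^ 4 * M.ψ a ^ 2 -
    a ^ 3 * b * M.ψ a - a * b * c + a * M.ψ c - b * M.ψ b - c ^ 2) -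
    l * M.ψ l * (a * b * M.ψ a - b ^ 2 + c * M.ψ a) + l * a ^ 2
  small : ∀ a b c (l : Kˣ), τ (M.u a b c * M.h l) = 1 + (l + (l : K)⁻¹) +
    (l * M.ψ l + ((l : K) * M.ψ l)⁻¹) + (l ^ 2 * M.ψ l + ((l : K) ^ 2 * M.ψ l)⁻¹)

/-- Transport of the trace. -/
def Tr.congr {G G' : Type*} [Group G] [Group G'] {M : Model K G} (T : Tr M) (e : G' ≃* G) :
    Tr (M.congr e) where
  τ g := T.τ (e g)
  conj x g := by simp only [map_mul, map_inv, T.conj]
  big l a b c := by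
    simp only [map_mul]
    exact (congrArg T.τ (by simp [Model.congr])).trans (T.big l a b c)
  small a b c l := by
    simp only [map_mul]
    exact (congrArg T.τ (by simp [Model.congr])).trans (T.small a b c l)

variable {m : ℕ} {S : Twist (CG2 K) symG2} {φ ψ : K →+* K} (h : IsG2 m S φ ψ)

/-- The trace for the model inside the Chevalley group. -/
noncomputable def trK : Tr (modelK h) where
  τ g := ψ (rep7 h.three g.1).trace
  conj x g := by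
    rw [Subgroup.coe_mul, map_mul, Matrix.trace_mul_comm, ← map_mul, ← Subgroup.coe_mul,
      inv_mul_cancel_left]
  big l a b c := by
    have h1 := l.ne_zero
    have h2 : ψ l ≠ 0 := (map_ne_zero ψ).2 h1
    have h3 := h.three
    change ψ (rep7 h.three (nG2 φ * hG2 φ (par ψ l) * uG2 φ a b c)).trace = -1 - l ^ 2 * ψ l *
      (a ^ 4 * ψ a ^ 2 - a ^ 3 * b * ψ a - a * b * c + a * ψ c - b * ψ b - c ^ 2) -
      l * ψ l * (a * b * ψ a - b ^ 2 + c * ψ a) + l * a ^ 2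
    simp only [hG2_apply, uG2, map_mul, rep7_pU, rep7_n, rep7_tor, mul_fin_seven, mul_zero, zero_mul,
      add_zero, zero_add, one_mul, mul_one, Matrix.trace, Fin.sum_univ_seven]
    simp [h.ψφ, coe_par, ψψ_G2 h]
    field_simp
    grind
  small a b c l := by
    have h1 := l.ne_zero
    have h2 : ψ l ≠ 0 := (map_ne_zero ψ).2 h1
    change ψ (rep7 h.three (uG2 φ a b c * hG2 φ (par ψ l))).trace = 1 + (l + (l : K)⁻¹) +
      (l * ψ l + ((l : K) * ψ l)⁻¹) + (l ^ 2 * ψ l + ((l : K) ^ 2 * ψ l)⁻¹)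
    simp only [hG2_apply, uG2, map_mul, rep7_pU, rep7_tor, mul_fin_seven, mul_zero, zero_mul,
      add_zero, zero_add, one_mul, mul_one, Matrix.trace, Fin.sum_univ_seven]
    simp [h.ψφ, coe_par, ψψ_G2 h]
    field_simp
    ring

theorem exists_model_tr [Fintype K] {m : ℕ} (hK : Fintype.card K = 3 ^ (2 * m + 1)) :
    ∃ M : Model K (twistedG2 K (3 ^ m)), Nonempty (Tr M) := by
  obtain ⟨S, φ, ψ, h⟩ := exists_isG2 hK
  exact ⟨_, ⟨(trK h).congr (equivOfMap (Subgroup.subtype_injective _) map_KG2)⟩⟩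

end Cfsg.Lib.Ree
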