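import Cfsg.Agent.Lib.Ree.Tr
import Cfsg.Agent.Lib.Ree.Orders

/-!
The trace determines the class of a regular semisimple element of a small Ree group.
-/

set_option autoImplicit false

namespace Cfsg.Lib.Ree

open Subgroup

variable {K : Type*} [Field K] {G : Type*} [Group G]

theorem Tor.mul_ncard_classes [Finite G] (t : Tor G) {k : ℕ}
    (hk : Nat.card t.N = k * Nat.card t.T) :
    k * (ConjClasses.mk '' {x | x ∈ t.T ∧ x * x ≠ 1}).ncard +
      {x | x ∈ t.T ∧ x * x = 1}.ncard ≤ Nat.card t.T := by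
  classical
  have := Fintype.ofFinite G
  have h1 : k * (ConjClasses.mk '' {x | x ∈ t.T ∧ x * x ≠ 1}).ncard ≤
      {x | x ∈ t.T ∧ x * x ≠ 1}.ncard := by
    rw [Set.ncard_eq_toFinset_card', Set.ncard_eq_toFinset_card', Set.toFinset_image]
    refine Finset.mul_card_image_le_card _ _ fun b hb => ?_
    obtain ⟨x, hx, rfl⟩ := Finset.mem_image.1 hb
    rw [Set.mem_toFinset] at hx
    have h2 := card_eq_ncard_mul t.N x
    rw [t.cent x hx.1 hx.2, inf_of_le_right le_normalizer, hk] at h2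
    rw [Nat.eq_of_mul_eq_mul_right Nat.card_pos h2, ← Set.ncard_coe_finset]
    refine Set.ncard_le_ncard ?_
    rintro _ ⟨n, hn, rfl⟩
    simp only [Finset.coe_filter, Set.mem_toFinset, Set.mem_ofPred_eq]
    refine ⟨⟨t.conj_mem hn hx.1, fun e => hx.2 ?_⟩, ConjClasses.mk_eq_mk_iff_isConj.2
      (isConj_iff.2 ⟨n, rfl⟩).symm⟩
    rwa [conj_mul, conj_eq_one_iff] at e
  have h2 : {x | x ∈ t.T ∧ x * x ≠ 1}.ncard + {x | x ∈ t.T ∧ x * x = 1}.ncard = Nat.card t.T := by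
    rw [← Set.ncard_union_eq (Set.disjoint_left.2 fun x h h' => h.2 h'.2), ← SetLike.coe_sort_coe,
      Nat.card_coe_set_eq]
    congr 1
    ext x
    simp only [Set.mem_union, Set.mem_ofPred_eq, SetLike.mem_coe]
    tauto
  omega

/-- The regular semisimple elements. -/
def Reg (g : G) : Prop := ¬ 3 ∣ orderOf g ∧ ¬ orderOf g ∣ 2

theorem Reg.sq {g : G} (h : Reg g) : g * g ≠ 1 := fun e =>
  h.2 (orderOf_dvd_of_pow_eq_one (by rwa [pow_two]))

namespace Model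

variable (M : Model K G) [Finite K] (hq : 3 < Nat.card K) {r : ℕ} (hr : r ^ 2 = 3 * Nat.card K)

include M hq hr in
theorem exists_tori : ∃ t : Fin 4 → Tor G, (∀ g, Reg g → ∃ i, g ∈ cl ((t i).T : Set G)) ∧
    (∀ i, Nat.card (t i).T ≤ Nat.card K + r + 1 ∧ ¬ 3 ∣ Nat.card (t i).T) ∧
    ∑ i, (ConjClasses.mk '' {x | x ∈ (t i).T ∧ x * x ≠ 1}).ncard ≤ Nat.card K - 2 := by
  have := M.finite
  have hm := M.card_mod
  have hrq : r ≤ Nat.card K := by nlinarith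
  have h3r : 3 ∣ r := Nat.prime_three.dvd_of_dvd_pow (n := 2) ⟨_, hr⟩
  obtain ⟨t0, h0, -, h0'⟩ := M.exists_torH hq
  obtain ⟨t1, s, hs, h1, -, h1', -, h1''⟩ := M.exists_torQ hq
  obtain ⟨t2, t3, -, -, h2, h3, h2', h3'⟩ := M.exists_torE_pair hq hr
  have c0 : Nat.card t0.T = Nat.card K - 1 := h0 ▸ M.card_H
  refine ⟨![t0, t1, t2, t3], fun g hg => ?_, fun i => ?_, ?_⟩
  · rcases M.cases_orderOf hq hg.1 hg.2 with h | h | h
    · exact ⟨0, M.mem_cl_of_orderOf_dvd t0 (c0 ▸ h) hg.2⟩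
    · exact ⟨1, M.mem_cl_of_orderOf_dvd t1 (h1 ▸ h) hg.2⟩
    · obtain ⟨p, hp, hp2, hd⟩ := M.exists_odd_prime hg.sq
      rcases (hp.dvd_mul).1 (ell_eq hr hrq ▸ hd.trans h) with h | h
      · exact ⟨2, t2.mem_cl_of_dvd hp hp2 (h2 ▸ h) hd⟩
      · exact ⟨3, t3.mem_cl_of_dvd hp hp2 (h3 ▸ h) hd⟩
  · fin_cases i <;> simp only [Fin.reduceFinMk, Matrix.cons_val, c0, h1, h2, h3] <;> omega
  · have e0 := t0.mul_ncard_classes (k := 2) (by rw [h0', c0, M.card_N])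
    have e1 := t1.mul_ncard_classes (k := 6) (by rw [h1', h1])
    have e2 := t2.mul_ncard_classes h2'
    have e3 := t3.mul_ncard_classes h3'
    have f0 : 2 ≤ {x | x ∈ t0.T ∧ x * x = 1}.ncard := by
      rw [← Set.ncard_pair M.a_ne_one]
      refine Set.ncard_le_ncard ?_
      rintro _ (rfl | rfl)
      exacts [⟨h0 ▸ M.a_mem_H, M.a_mul_a⟩, ⟨one_mem _, mul_one _⟩]
    have f1 : {x | x ∈ t1.T ∧ x * x = 1}.ncard = 4 := by
      rw [← (M.isKleinFour_ext hs).card_four, ← SetLike.coe_sort_coe, Nat.card_coe_set_eq]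
      exact congrArg _ (Set.ext fun x => (h1'' x).symm)
    have f : ∀ t : Tor G, 1 ≤ {x | x ∈ t.T ∧ x * x = 1}.ncard := fun t =>
      (Set.ncard_pos (Set.toFinite _)).2 ⟨1, one_mem _, mul_one _⟩
    have f2 := f t2
    have f3 := f t3
    simp only [Fin.sum_univ_four, Matrix.cons_val]
    omega

include M hq hr in
theorem card_centralizer_reg {x : G} (hx : Reg x) :
    Nat.card (centralizer {x}) ≤ Nat.card K + r + 1 ∧ ¬ 3 ∣ Nat.card (centralizer {x}) := by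
  obtain ⟨t, h1, h2, -⟩ := M.exists_tori hq hr
  obtain ⟨i, hi⟩ := h1 x hx
  rw [(t i).card_centralizer hi hx.sq]
  exact h2 i

include M hq hr in
theorem ncard_classes_reg : (ConjClasses.mk '' {x : G | Reg x}).ncard ≤ Nat.card K - 2 := by
  have := M.finite
  obtain ⟨t, h1, -, h2⟩ := M.exists_tori hq hr
  refine le_trans ((Set.ncard_le_ncard ?_).trans (Set.ncard_iUnion_le_of_fintype _)) h2
  rintro _ ⟨x, hx, rfl⟩
  obtain ⟨i, y, hy⟩ := h1 x hx
  refine Set.mem_iUnion.2 ⟨i, _, ⟨hy, fun e => hx.sq ?_⟩, ConjClasses.mk_eq_mk_iff_isConj.2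
    (isConj_iff.2 ⟨y, rfl⟩).symm⟩
  rwa [conj_mul, conj_eq_one_iff] at e

end Model

namespace Tr

variable {M : Model K G} (T : Tr M)

theorem of_isConj {x y : G} (h : IsConj x y) : T.τ x = T.τ y := by
  obtain ⟨g, rfl⟩ := isConj_iff.1 h
  rw [T.conj]

theorem τ_u (a b c : K) : T.τ (M.u a b c) = 1 := by
  simpa using (T.small a b c 1).trans (by simp; linear_combination 2 * M.three)

theorem τ_u_a (a b c : K) : T.τ (M.u a b c * M.a) = -1 :=
  (T.small a b c (-1)).trans (by simp)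

theorem τ_inv (g : G) : T.τ g⁻¹ = T.τ g := by
  obtain ⟨a, b, c, l, rfl | ⟨a', b', c', rfl⟩⟩ := M.bruhat g
  · rw [mul_inv_rev, ← map_inv, M.u_inv, M.h_mul_u, T.small, T.small]
    simp only [Units.val_inv_eq_inv_val, map_inv₀, inv_inv, inv_pow, mul_inv]
    ring
  · have key : ∀ (l : Kˣ) a b c, T.τ (M.w * M.h l * (M.u a b c)⁻¹) =
        T.τ (M.w * M.h l * M.u a b c) := fun l a b c => by
      have := M.charP
      rw [M.u_inv, T.big, T.big, ← sub_eq_zero]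
      simp only [map_neg, map_sub, map_add, map_mul, map_pow, M.ψψ]
      ring_nf
      reduce_mod_char
      simp [M.three]
    obtain ⟨x, y, z, e⟩ := M.U.mul_mem (M.u_mem_U a' b' c') (M.u_mem_U a b c)
    have e1 : M.u a b c * M.h l * M.w * M.u a' b' c' =
        M.u a b c * (M.w * M.h l⁻¹ * M.u x y z) * (M.u a b c)⁻¹ := by
      rw [← e, ← M.h_mul_w]; group
    have e2 : (M.w * M.h l⁻¹ * M.u x y z)⁻¹ =
        (M.u x y z)⁻¹ * (M.w * M.h l⁻¹ * (M.u x y z)⁻¹) * (M.u x y z)⁻¹⁻¹ := by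
      rw [mul_inv_rev, mul_inv_rev, M.w_inv, ← map_inv, inv_inv, M.h_mul_w]; group
    rw [e1, conj_inv, T.conj, T.conj, e2, T.conj, key]

variable [Finite K]

theorem τ_of_not_reg (hq : 3 < Nat.card K) {g : G} (h : ¬ Reg g) : T.τ g = 1 ∨ T.τ g = -1 := by
  have := M.finite
  by_cases h3 : 3 ∣ orderOf g
  · obtain ⟨y, hy⟩ := M.exists_conj_mem_B h3
    rw [← T.conj y]
    rw [← orderOf_conj y] at h3
    rcases M.cases_B hy with ⟨a, b, c, e⟩ | ⟨z, -, b, e⟩ | ⟨z, -, l, -, -, e⟩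
    · exact Or.inl (e ▸ T.τ_u ..)
    · exact Or.inr (by rw [e, T.conj, τ_u_a])
    · have := M.card_mod
      have := (e ▸ h3 : 3 ∣ orderOf (z * M.h l * z⁻¹))
      rw [orderOf_conj] at this
      have := this.trans (M.orderOf_dvd_of_mem_H (M.h_mem_H l))
      omega
  · rcases (Nat.dvd_prime Nat.prime_two).1 (not_not.1 fun h2 => h ⟨h3, h2⟩) with e | e
    · exact Or.inl (by rw [orderOf_eq_one_iff.1 e, ← M.u_zero, τ_u])
    · exact Or.inr (by rw [T.of_isConj (M.isConj_a hq e), ← T.τ_u_a 0 0 0, M.u_zero, one_mul])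

theorem exists_τ_eq (t : K) : ∃ (l : Kˣ) (c : K), c ^ 2 = (t + 1) * l ∧ (l = 1 ∨ l = -1) ∧
    ∀ c', c' ^ 2 = c ^ 2 → T.τ (M.w * M.h l * M.u 0 0 c') = t := by
  rcases M.isSquare_or (t + 1) with ⟨c, hc⟩ | ⟨c, hc⟩
  · exact ⟨1, c, by simp [hc, sq], Or.inl rfl, fun c' h => by
      rw [T.big, h]; simp; linear_combination -hc⟩
  · exact ⟨-1, c, by rw [sq, ← hc]; simp, Or.inr rfl, fun c' h => by
      rw [T.big, h]; simp; linear_combination hc⟩

variable (hq : 3 < Nat.card K) {r : ℕ} (hr : r ^ 2 = 3 * Nat.card K)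
include hq hr

theorem τ_reg {x : G} (hx : Reg x) :
    T.τ x ≠ 1 ∧ T.τ x ≠ -1 ∧ ∀ y, T.τ y = T.τ x → IsConj x y := by
  have := M.finite
  let f : ConjClasses G → K := Quotient.lift T.τ fun _ _ => T.of_isConj
  have hs : ({1, -1}ᶜ : Set K) ⊆ f '' (ConjClasses.mk '' {x : G | Reg x}) := fun t ht => by
    obtain ⟨l, c, -, -, h⟩ := T.exists_τ_eq t
    exact ⟨_, ⟨_, not_not.1 fun e => ht (h c rfl ▸ T.τ_of_not_reg hq e), rfl⟩, h c rfl⟩
  have hc : ({1, -1}ᶜ : Set K).ncard = Nat.card K - 2 := by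
    rw [Set.ncard_compl, Set.ncard_pair M.neg_one_ne_one.symm]
  have h1 := M.ncard_classes_reg hq hr
  have h2 := Set.ncard_image_le (f := f) (Set.toFinite (ConjClasses.mk '' {x : G | Reg x}))
  have h3 := Set.eq_of_subset_of_ncard_le hs (by omega)
  have h4 := Set.injOn_of_ncard_image_eq (f := f) (s := ConjClasses.mk '' {x : G | Reg x})
    (by rw [← h3] at h2 ⊢; omega)
  have h5 : T.τ x ∈ ({1, -1}ᶜ : Set K) := h3.ge ⟨_, ⟨x, hx, rfl⟩, rfl⟩
  refine ⟨fun e => h5 (Or.inl e), fun e => h5 (Or.inr e), fun y hy => ?_⟩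
  exact ConjClasses.mk_eq_mk_iff_isConj.1 (h4 ⟨x, hx, rfl⟩
    ⟨y, not_not.1 fun e => h5 (hy ▸ T.τ_of_not_reg hq e), rfl⟩ hy.symm)

end Tr

end Cfsg.Lib.Ree
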